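import Groth.Agent.Sga4h.H556.GeoFinal0

/-!
# GEO for `EtCoh.H` and `HpullConst`, modulo the purity theorem and conservation of number
-/

set_option autoImplicit false
universe u
open CategoryTheory CategoryTheory.Limits AlgebraicGeometry Opposite Abelian
open Groth.Agent.Sga4B.DualShape
open scoped Groth.Agent.Etcore.EtInst
open Groth.Agent.Etcore.EtInst

namespace Groth.Agent.Sga4h.H556.GeoH

open Groth.Agent.Sga4h.H556.Supp Groth.Agent.Sga4h.H556.SimpleDat Groth.Agent.Sga4h.H556.PurFrom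
open Groth.Agent.Sga4h.H556.Geo Groth.Agent.Sga4h.H556.Fixed Groth.Agent.Sga4h.H556.GeoFinal0

noncomputable section

variable {k : Type u} [Field k] {X : Scheme.{u}} {p : X ⟶ Spec (CommRingCat.of k)}

theorem geo_H [IsAlgClosed k] [IsSeparated p] [ConnectedSpace X] {d ℓ : ℕ}
    [SmoothOfRelativeDimension d p] [Fact ℓ.Prime] (hℓ : (ℓ : k) ≠ 0)
    (hP : PurityStmt.{u}) (hcons : Cons p (ZMod ℓ))
    (O : (pullback p p).Opens) (hO : (O : Set ↥(pullback p p)) = (Set.range (pullback.diagonal p))ᶜ)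
    (c : EtCoh.H (pullback p p) (EtCoh.const _ (ZMod ℓ)) (2 * d))
    (hc0 : HpullConst O.ι (ZMod ℓ) (2 * d) c = 0)
    (deg : EtCoh.H X (EtCoh.const X (ZMod ℓ)) (2 * d) →+ ZMod ℓ)
    (hslice : ∀ (s : Spec (CommRingCat.of k) ⟶ X) (x : X ⟶ pullback p p) (_ : s ≫ p = 𝟙 _)
      (_ : x ≫ pullback.fst p p = p ≫ s) (_ : x ≫ pullback.snd p p = 𝟙 X),
      deg (HpullConst x (ZMod ℓ) (2 * d) c) = 1)
    (f : X ⟶ X) (hf : f ≫ p = p) [IsFinite (FinFr.fixSchemeTo p f hf)] (g : X ⟶ pullback p p)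
    (hg : g ≫ pullback.fst p p = f) (hg' : g ≫ pullback.snd p p = 𝟙 X) :
    deg (HpullConst g (ZMod ℓ) (2 * d) c) = (FinFr.fixCount p f hf : ZMod ℓ) := by
  obtain rfl : O = OD p := TopologicalSpace.Opens.ext hO
  obtain rfl : g = gr p f hf := by
    apply pullback.hom_ext
    · rw [hg, gr_fst]
    · rw [hg', gr_snd]
  have h1 : ∀ x : X ⟶ pullback p p, deg (HpullConst x (ZMod ℓ) (2 * d) c) =
      deg (hc (ZMod ℓ) x (2 * d) c) := fun x => congrArg deg (HpullConst_apply (ZMod ℓ) x (2 * d) c)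
  rw [h1]
  refine geo0 hℓ hP hcons c ((HpullConst_apply (ZMod ℓ) (OD p).ι (2 * d) c).symm.trans hc0) deg
    (fun s hs => ?_) f hf
  rw [← hslice s (sl p s hs) hs (sl_fst p s hs) (sl_snd p s hs), h1]

end

end Groth.Agent.Sga4h.H556.GeoH
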